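import Mathlib.GroupTheory.GroupAction.FixedPoints
import Mathlib.GroupTheory.OrderOfElement
import Cfsg.Agent.Lib.Transfer.Fusion

/-!
Normalisers of Sylow subgroups, weakly closed central subgroups.
-/

set_option autoImplicit false
open Subgroup MulAction
open scoped Pointwise commutatorElement

namespace Cfsg.Agent.Lib.Transfer

variable {G : Type*} [Group G] {p : ℕ}

theorem normalizer_le_centralizer_of_coprime [Finite G] [Fact p.Prime] (P : Sylow p G)
    (hP : IsMulCommutative P) (h : AutPGroup p (P : Subgroup G)) :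
    normalizer (P : Set G) ≤ centralizer (P : Set G) := by
  intro x hx
  obtain ⟨c, hc, t, ht, rfl⟩ := normalizer_eq_centralizer_sup h (P.subtype le_normalizer) hx
  exact mul_mem hc (Subgroup.le_centralizer (P : Subgroup G) (mem_subgroupOf.mp (by simpa using ht)))

/-- A normalizing `p'`-element that does not centralize `T` gives a prime `q ≠ p` with a congruence. -/
theorem exists_prime_modEq [Finite G] [hp : Fact p.Prime] (T : Subgroup G) {g : G}
    (hg : g ∈ normalizer (T : Set G)) (hgo : Nat.Coprime (orderOf g) p)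
    (hgc : g ∉ centralizer (T : Set G)) :
    ∃ q : ℕ, q.Prime ∧ q ≠ p ∧ q ∣ Nat.card G ∧
      ∃ F : Subgroup T, F ≠ ⊤ ∧ Nat.card T ≡ Nat.card F [MOD q] := by
  let f : MulAut T := T.normalizerMonoidHom ⟨g, hg⟩
  have hf : f ≠ 1 := by
    intro hf
    have : (⟨g, hg⟩ : normalizer (T : Set G)) ∈ T.normalizerMonoidHom.ker := hf
    rw [normalizerMonoidHom_ker, mem_subgroupOf] at this
    exact hgc this
  have hdvd : orderOf f ∣ orderOf g := by
    simpa using orderOf_map_dvd T.normalizerMonoidHom (⟨g, hg⟩ : normalizer (T : Set G))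
  obtain ⟨q, hq, hqf⟩ := Nat.exists_prime_and_dvd (n := orderOf f) (by simpa using hf)
  have hf0 : 0 < orderOf f := orderOf_pos f
  obtain ⟨b, hb⟩ : ∃ b : MulAut T, orderOf b = q :=
    ⟨f ^ (orderOf f / q), orderOf_pow_orderOf_div hf0.ne' hqf⟩
  refine ⟨q, hq, ?_, hqf.trans (hdvd.trans (_root_.orderOf_dvd_natCard g)), ?_⟩
  · rintro rfl
    exact hq.ne_one (Nat.Coprime.eq_one_of_dvd (hgo.coprime_dvd_left (hqf.trans hdvd)) dvd_rfl)
  have : Fact q.Prime := ⟨hq⟩
  let F : Subgroup T := b.toMonoidHom.eqLocus (MonoidHom.id T)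
  refine ⟨F, fun hF => ?_, ?_⟩
  · have hb1 : b = 1 := MulEquiv.ext fun x => (show x ∈ F from hF ▸ mem_top x)
    rw [hb1, orderOf_one] at hb
    exact hq.ne_one hb.symm
  · have hB : IsPGroup q (zpowers b) := IsPGroup.of_card (n := 1) (by rw [Nat.card_zpowers, hb, pow_one])
    convert hB.card_modEq_card_fixedPoints T using 1
    refine Nat.card_congr (Equiv.setCongr (Set.ext fun x => ⟨fun hx => ?_, fun hx => ?_⟩))
    · rintro ⟨c, hc⟩
      have : c ∈ stabilizer (MulAut T) x := zpowers_le.mpr (show b • x = x from hx) hc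
      exact this
    · exact hx ⟨b, mem_zpowers b⟩

/-- A central weakly closed subgroup: its normalizer controls fusion. -/
theorem controlsFusion_normalizer_of_weaklyClosed [Finite G] [Fact p.Prime] (P : Sylow p G)
    {Z : Subgroup G} (hZ : Z ≤ centralizer (P : Set G)) (hW : IsWeaklyClosed Z (P : Subgroup G)) :
    ControlsFusion (normalizer (Z : Set G)) (P : Subgroup G) := by
  intro x hx g hgx
  let y := g * x * g⁻¹
  have hZy : Z ≤ centralizer {y} := fun z hz =>
    mem_centralizer_singleton_iff.mpr (mem_centralizer_iff.mp (hZ hz) y hgx).symm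
  let B := Z.map (MulAut.conj g).toMonoidHom
  have hBy : B ≤ centralizer {y} := by
    rintro _ ⟨z, hz, rfl⟩
    have := mem_centralizer_iff.mp (hZ hz) x hx
    rw [mem_centralizer_singleton_iff]
    calc (MulAut.conj g).toMonoidHom z * y = g * (z * x) * g⁻¹ := by simp [y, mul_assoc]
      _ = g * (x * z) * g⁻¹ := by rw [this]
      _ = _ := by simp [y, mul_assoc]
  have hZp : IsPGroup p Z := P.2.to_le hW.1
  obtain ⟨c, hc, R, hZR, hBR⟩ :=
    exists_le_sylow_smul_le hZp (hZp.map (MulAut.conj g).toMonoidHom) hZy hBy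
  obtain ⟨h, hh⟩ := MulAction.exists_smul_eq G R P
  have hmove : ∀ a : G, (∀ z ∈ Z, a * z * a⁻¹ ∈ (R : Subgroup G)) →
      h * a ∈ normalizer (Z : Set G) := by
    intro a ha
    rw [mem_normalizer_iff_map_conj_eq]
    refine hW.2 (h * a) ?_
    rintro _ ⟨z, hz, rfl⟩
    rw [← hh]
    exact mem_smul_sylow.mpr (by simpa [mul_assoc] using ha z hz)
  have h1 : h * 1 ∈ normalizer (Z : Set G) := hmove 1 fun z hz => by simpa using hZR hz
  have h2 : h * (c * g) ∈ normalizer (Z : Set G) := hmove (c * g) fun z hz => by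
    simpa [mul_assoc] using hBR _ ⟨z, hz, rfl⟩
  refine ⟨c * g, ?_, ?_⟩
  · simpa using mul_mem (inv_mem h1) h2
  · have := mem_centralizer_singleton_iff.mp hc
    calc c * g * x * (c * g)⁻¹ = c * y * c⁻¹ := by simp [y, mul_assoc]
      _ = y := by rw [this]; simp

end Cfsg.Agent.Lib.Transfer
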